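import Mathlib
import Cfsg.Agent.Lib.Helper34.SnB.QSDefs
import Cfsg.Agent.Lib.Helper1.Commutator
import Cfsg.Agent.Lib.Helper47.Subn

set_option autoImplicit false

/-!
# S2986, sub-package [QS-RES]

A group `X` generated by `p'`-elements acting on a `p`-group `U`: `[U, X, X] = [U, X]`.
-/

namespace Cfsg.Agent.Lib.Helper96.SnB

open Cfsg Cfsg.Agent.Lib.Helper41.SnB Cfsg.Agent.Lib.Helper34.SnB

open scoped commutatorElement

universe u

/-- the elements `x` of `X` all of whose commutators `[u, x]`, `u ∈ U`, lie in the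
`X`-invariant subgroup `T` -/
def commSub {G : Type u} [Group G] (U X T : Subgroup G)
    (hT : ∀ x ∈ X, ∀ t ∈ T, x * t * x⁻¹ ∈ T) : Subgroup G where
  carrier := {x | x ∈ X ∧ ∀ u ∈ U, u * x * u⁻¹ * x⁻¹ ∈ T}
  one_mem' := ⟨X.one_mem, fun u _ => by simp⟩
  mul_mem' := by
    rintro x y ⟨hx, hx'⟩ ⟨hy, hy'⟩
    refine ⟨X.mul_mem hx hy, fun u hu => ?_⟩
    have e : u * (x * y) * u⁻¹ * (x * y)⁻¹
        = (u * x * u⁻¹ * x⁻¹) * (x * (u * y * u⁻¹ * y⁻¹) * x⁻¹) := by group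
    rw [e]
    exact T.mul_mem (hx' u hu) (hT x hx _ (hy' u hu))
  inv_mem' := by
    rintro x ⟨hx, hx'⟩
    refine ⟨X.inv_mem hx, fun u hu => ?_⟩
    have e : u * x⁻¹ * u⁻¹ * x⁻¹⁻¹ = x⁻¹ * (u * x * u⁻¹ * x⁻¹)⁻¹ * x⁻¹⁻¹ := by group
    rw [e]
    exact hT x⁻¹ (X.inv_mem hx) _ (T.inv_mem (hx' u hu))

/-- **[QS-RES]** -/
theorem pkgRes : PkgRes.{u} := by
  intro G _ _ p _ X U hres hU hN
  have hp : p.Prime := Fact.out
  have hXU : X ≤ Subgroup.normalizer (U : Set G) :=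
    Cfsg.Agent.Lib.Helper47.le_normalizer_of_conj_mem U X hN
  have hUX : ⁅U, X⁆ ≤ U := Cfsg.Agent.Lib.Helper1.commutator_le_of_le_normalizer hXU
  apply le_antisymm (Subgroup.commutator_mono hUX le_rfl)
  have hT : ∀ x ∈ X, ∀ t ∈ ⁅⁅U, X⁆, X⁆, x * t * x⁻¹ ∈ ⁅⁅U, X⁆, X⁆ := by
    intro x hx t ht
    exact (Subgroup.mem_normalizer_iff.mp
      (Cfsg.Agent.Lib.Helper1.le_normalizer_commutator_right ⁅U, X⁆ X hx) t).mp ht
  have hS : X ≤ commSub U X ⁅⁅U, X⁆, X⁆ hT := by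
    have hX : X = Subgroup.closure {x : G | x ∈ X ∧ (orderOf x).Coprime p} := by
      rw [← Cfsg.Agent.Lib.Helper47.pResidual_map_subtype_eq]
      exact hres.symm
    refine hX.le.trans ?_
    rw [Subgroup.closure_le]
    rintro e ⟨heX, hep⟩
    refine ⟨heX, fun u hu => ?_⟩
    have hzX : Subgroup.zpowers e ≤ X := (Subgroup.zpowers_le).2 heX
    have hcop : (Nat.card (Subgroup.zpowers e)).Coprime (Nat.card U) := by
      rw [Nat.card_zpowers]
      obtain ⟨n, hn⟩ := IsPGroup.iff_card.mp hU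
      rw [hn]
      exact Nat.Coprime.pow_right n hep
    have hcomm : ∀ a b : ↥(Subgroup.zpowers e), a * b = b * a := by
      rintro ⟨a, ha⟩ ⟨b, hb⟩
      obtain ⟨m, rfl⟩ := Subgroup.mem_zpowers_iff.mp ha
      obtain ⟨n, rfl⟩ := Subgroup.mem_zpowers_iff.mp hb
      apply Subtype.ext
      show e ^ m * e ^ n = e ^ n * e ^ m
      rw [← zpow_add, ← zpow_add, add_comm]
    have hsolv : Group.IsSolvable ↥(Subgroup.zpowers e) := Group.isSolvable_of_comm hcomm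
    have h := Cfsg.Agent.Lib.Helper1.coprime_commutator_commutator (Subgroup.zpowers e) U
      (hzX.trans hXU) hcop (Or.inl hsolv)
    have h1 : ⁅u, e⁆ ∈ ⁅U, Subgroup.zpowers e⁆ :=
      Subgroup.commutator_mem_commutator hu (Subgroup.mem_zpowers e)
    rw [← h] at h1
    have h2 : ⁅⁅U, Subgroup.zpowers e⁆, Subgroup.zpowers e⁆ ≤ ⁅⁅U, X⁆, X⁆ :=
      Subgroup.commutator_mono (Subgroup.commutator_mono le_rfl hzX) hzX
    have h3 := h2 h1
    rwa [commutatorElement_def] at h3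
  rw [Subgroup.commutator_le]
  intro u hu x hx
  have := (hS hx).2 u hu
  rwa [commutatorElement_def]

end Cfsg.Agent.Lib.Helper96.SnB
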