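import Mathlib
import Cfsg.Agent.Lib.Helper34.SnB.QSDefs
import Cfsg.Agent.Lib.Helper1.Commutator
import Cfsg.Agent.Lib.Helper47.Subn
import Cfsg.Agent.Lib.Helper55.Cores
import Cfsg.Agent.Lib.Helper85.BB.S2984Core
import Cfsg.Agent.Lib.Helper96.SnB.QSRes

set_option autoImplicit false

/-!
# S2986, sub-package [QS-XX]

`X = [E, F]` satisfies `[X, E] = X = [X, F]`.
-/

namespace Cfsg.Agent.Lib.Helper96.SnB

open Cfsg Cfsg.Agent.Lib.Helper41.SnB Cfsg.Agent.Lib.Helper34.SnB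

open scoped commutatorElement

universe u

theorem xx_half {G : Type u} [Group G] [Finite G] {p : ℕ} [Fact p.Prime] (E F : Subgroup G)
    (hres : pResidualOf p E = E) (hC : CC p E F) (hFE : Nz F E) :
    ⁅⁅E, F⁆, E⁆ = ⁅E, F⁆ := by
  have hp : p.Prime := Fact.out
  -- `E` and `F` normalize `X = [E, F]`
  have hEX : E ≤ Subgroup.normalizer ((⁅E, F⁆ : Subgroup G) : Set G) :=
    Cfsg.Agent.Lib.Helper1.le_normalizer_commutator_left E F
  have hFX : F ≤ Subgroup.normalizer ((⁅E, F⁆ : Subgroup G) : Set G) :=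
    Cfsg.Agent.Lib.Helper1.le_normalizer_commutator_right E F
  have hFE' : F ≤ Subgroup.normalizer (E : Set G) :=
    Cfsg.Agent.Lib.Helper47.le_normalizer_of_conj_mem E F hFE
  -- `X ≤ E`
  have hXE : ⁅E, F⁆ ≤ E := Cfsg.Agent.Lib.Helper1.commutator_le_of_le_normalizer hFE'
  -- `X ≤ P`
  have hXP : ⁅E, F⁆ ≤ pCore p G := by
    rw [Subgroup.commutator_le]
    intro e he f hf
    rw [commutatorElement_def]
    exact hC e he f hf
  have hXp : IsPGroup p ↥(⁅E, F⁆ : Subgroup G) :=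
    (Cfsg.Agent.Lib.Helper55.pCore_isPGroup p G).to_le hXP
  apply le_antisymm (Cfsg.Agent.Lib.Helper1.commutator_le_of_le_normalizer hEX)
  -- invariance of `T = [X, E]`
  have hT : ∀ x ∈ E, ∀ t ∈ ⁅⁅E, F⁆, E⁆, x * t * x⁻¹ ∈ ⁅⁅E, F⁆, E⁆ := by
    intro x hx t ht
    exact (Subgroup.mem_normalizer_iff.mp
      (Cfsg.Agent.Lib.Helper1.le_normalizer_commutator_right ⁅E, F⁆ E hx) t).mp ht
  have hS : E ≤ commSub F E ⁅⁅E, F⁆, E⁆ hT := by
    have hX : E = Subgroup.closure {x : G | x ∈ E ∧ (orderOf x).Coprime p} := by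
      rw [← Cfsg.Agent.Lib.Helper47.pResidual_map_subtype_eq]
      exact hres.symm
    refine hX.le.trans ?_
    rw [Subgroup.closure_le]
    rintro e ⟨heE, hep⟩
    refine ⟨heE, fun f hf => ?_⟩
    have hzE : Subgroup.zpowers e ≤ E := (Subgroup.zpowers_le).2 heE
    have hcop : (Nat.card (Subgroup.zpowers e)).Coprime (Nat.card (⁅E, F⁆ : Subgroup G)) := by
      rw [Nat.card_zpowers]
      obtain ⟨n, hn⟩ := IsPGroup.iff_card.mp hXp
      rw [hn]
      exact Nat.Coprime.pow_right n hep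
    have hcomm : ∀ a b : ↥(Subgroup.zpowers e), a * b = b * a := by
      rintro ⟨a, ha⟩ ⟨b, hb⟩
      obtain ⟨m, rfl⟩ := Subgroup.mem_zpowers_iff.mp ha
      obtain ⟨n, rfl⟩ := Subgroup.mem_zpowers_iff.mp hb
      apply Subtype.ext
      show e ^ m * e ^ n = e ^ n * e ^ m
      rw [← zpow_add, ← zpow_add, add_comm]
    have hsolv : Group.IsSolvable ↥(Subgroup.zpowers e) := Group.isSolvable_of_comm hcomm
    obtain ⟨n, hn, hc⟩ := Cfsg.Agent.Lib.Helper1.coprime_fixed_coset (Subgroup.zpowers e)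
      ⁅E, F⁆ hcop (Or.inl hsolv) ⁅E, F⁆ le_rfl (hzE.trans hEX) f (by
        intro a ha
        have h1 : ⁅f⁻¹, a⁆ ∈ ⁅F, E⁆ :=
          Subgroup.commutator_mem_commutator (F.inv_mem hf) (hzE ha)
        rw [Subgroup.commutator_comm, commutatorElement_def, inv_inv] at h1
        exact h1)
    -- `g = f * n` commutes with `e`
    have hge : e * (f * n) = f * n * e :=
      (Subgroup.mem_centralizer_iff.mp hc) e (Subgroup.mem_zpowers e)
    -- `[e, n⁻¹] ∈ [X, E]`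
    have h2 : ⁅e, n⁻¹⁆ ∈ ⁅⁅E, F⁆, E⁆ := by
      rw [Subgroup.commutator_comm]
      exact Subgroup.commutator_mem_commutator heE (Subgroup.inv_mem _ hn)
    -- `g` normalizes `[X, E]`
    have hfN : f ∈ Subgroup.normalizer ((⁅⁅E, F⁆, E⁆ : Subgroup G) : Set G) := by
      apply Cfsg.Agent.Lib.Helper47.le_normalizer_of_conj_mem ⁅⁅E, F⁆, E⁆ (Subgroup.zpowers f)
        _ (Subgroup.mem_zpowers f)
      intro s hs t ht
      have hsF : s ∈ F := (Subgroup.zpowers_le).2 hf hs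
      exact Cfsg.Agent.Lib.Helper85.BB.commutator_conj_mem (hFX hsF) (hFE' hsF) t ht
    have hnN : n ∈ Subgroup.normalizer ((⁅⁅E, F⁆, E⁆ : Subgroup G) : Set G) :=
      Cfsg.Agent.Lib.Helper1.le_normalizer_commutator_left ⁅E, F⁆ E hn
    have hgN := Subgroup.mul_mem _ hfN hnN
    have h3 : (f * n) * ⁅e, n⁻¹⁆ * (f * n)⁻¹ ∈ ⁅⁅E, F⁆, E⁆ :=
      (Subgroup.mem_normalizer_iff.mp hgN _).mp h2
    -- `[e, f] = g [e, n⁻¹] g⁻¹`
    have e1 : e * f * e⁻¹ * f⁻¹ = (f * n) * ⁅e, n⁻¹⁆ * (f * n)⁻¹ := by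
      rw [commutatorElement_def]
      have : e * f = f * n * e * n⁻¹ := by rw [← hge]; group
      calc e * f * e⁻¹ * f⁻¹ = (f * n * e * n⁻¹) * e⁻¹ * f⁻¹ := by rw [this]
        _ = f * n * (e * n⁻¹ * e⁻¹ * n⁻¹⁻¹) * (f * n)⁻¹ := by group
    -- `[f, e] = [e, f]⁻¹`
    have e2 : f * e * f⁻¹ * e⁻¹ = (e * f * e⁻¹ * f⁻¹)⁻¹ := by group
    rw [e2, e1]
    exact Subgroup.inv_mem _ h3
  rw [Subgroup.commutator_le]
  intro e he f hf
  have h := (hS he).2 f hf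
  have e2 : ⁅e, f⁆ = (f * e * f⁻¹ * e⁻¹)⁻¹ := by rw [commutatorElement_def]; group
  rw [e2]
  exact Subgroup.inv_mem _ h

/-- **[QS-XX]** -/
theorem pkgXX : PkgXX.{u} := by
  intro G _ _ p _ E F hE hF hC hEF hFE
  refine ⟨xx_half E F hE.res hC hFE, ?_⟩
  have hC' : CC p F E := by
    intro f hf e he
    have := Subgroup.inv_mem _ (hC e he f hf)
    have e1 : (e * f * e⁻¹ * f⁻¹)⁻¹ = f * e * f⁻¹ * e⁻¹ := by group
    rwa [e1] at this
  have := xx_half F E hF.res hC' hEF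
  rwa [Subgroup.commutator_comm F E] at this

end Cfsg.Agent.Lib.Helper96.SnB
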